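import Cfsg.Agent.Lib.CG.Glue2

set_option autoImplicit false
set_option maxRecDepth 100000
set_option Elab.async false

namespace Cfsg.Agent.CG.A5

noncomputable def t0 : ℕ := 0x2010180008
noncomputable def t1 : ℕ := 0x18200810
noncomputable def t2 : ℕ := 0x1018000820
noncomputable def t3 : ℕ := 0x818100020
noncomputable def t4 : ℕ := 0x18102008
noncomputable def t5 : ℕ := 0x1000081820
noncomputable def t6 : ℕ := 0x8201018
noncomputable def t7 : ℕ := 0x2008100018
noncomputable def t8 : ℕ := 0x2000101808
noncomputable def t9 : ℕ := 0x1808102000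
noncomputable def t10 : ℕ := 0x820101800
noncomputable def t11 : ℕ := 0x2008181000
noncomputable def t12 : ℕ := 0x2010081800
noncomputable def t13 : ℕ := 0x1810200800
noncomputable def t14 : ℕ := 0x1020180800
noncomputable def t15 : ℕ := 0x1810200800
noncomputable def t16 : ℕ := 0x1020180800
noncomputable def t17 : ℕ := 0x1820081000
noncomputable def t18 : ℕ := 0x1820100008
noncomputable def t19 : ℕ := 0x2018100800
noncomputable def tc0t15 : ℕ := 0x12a01b4008301b900880
noncomputable def tc0t16 : ℕ := 0x22301220084022100880
noncomputable def tc0t17 : ℕ := 0x29b02440119008200880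
noncomputable def tc0t18 : ℕ := 0x293025401ca011000810
noncomputable def tc0d : ℕ := 0x82007a0089009000000
noncomputable def tc1t15 : ℕ := 0xa100eb004200480
noncomputable def tc1t16 : ℕ := 0x11a0099004300480
noncomputable def tc1t17 : ℕ := 0x11200f3009000410
noncomputable def tc1d : ℕ := 0x810079008800000
noncomputable def tc2t15 : ℕ := 0x4c007200210
noncomputable def tc2t16 : ℕ := 0x89004800220
noncomputable def tc2d : ℕ := 0x40003c00000
noncomputable def mc0c : ℕ := 0x1820100800
noncomputable def mc0p : ℕ := 0x0
noncomputable def mc0l : ℕ := 0x602010000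
noncomputable def mc0i : ℕ := 0x501020000
noncomputable def mc0q : ℕ := 0x304020100
noncomputable def mc1c : ℕ := 0x10182008
noncomputable def mc1p : ℕ := 0x0
noncomputable def mc1l : ℕ := 0xb0a0900
noncomputable def mc1i : ℕ := 0xc090a00
noncomputable def mc1q : ℕ := 0x102030000
noncomputable def mc2c : ℕ := 0x182010
noncomputable def mc2p : ℕ := 0x0
noncomputable def mc2l : ℕ := 0xe0d00
noncomputable def mc2i : ℕ := 0xd0e00
noncomputable def mc2q : ℕ := 0x102000000

end Cfsg.Agent.CG.A5
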